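import Mathlib
import Cfsg.Agent.Lib.Helper58.SpecProd.Defs

/-!
# SpecProd package [A3]: three factors absorb a prime `r` (abstract, any finite group).
Also the shared helper lemmas for [A2].
-/

set_option autoImplicit false

namespace Cfsg.Agent.Lib.Helper85.SpecProd

open Cfsg.Agent.Lib.Helper58.SpecProd

universe u

/-- A prime power dividing an lcm divides one of the two numbers. -/
theorem sp_pp_dvd_lcm {p k a b : ℕ} (hp : p.Prime) (h : p ^ k ∣ Nat.lcm a b) :
    p ^ k ∣ a ∨ p ^ k ∣ b := by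
  rcases eq_or_ne a 0 with rfl | ha
  · left; exact dvd_zero _
  rcases eq_or_ne b 0 with rfl | hb
  · right; exact dvd_zero _
  have h1 := (hp.pow_dvd_iff_le_factorization (Nat.lcm_ne_zero ha hb)).mp h
  rw [Nat.factorization_lcm ha hb, Finsupp.sup_apply, le_sup_iff] at h1
  rcases h1 with h1 | h1
  · left; exact (hp.pow_dvd_iff_le_factorization ha).mpr h1
  · right; exact (hp.pow_dvd_iff_le_factorization hb).mpr h1

/-- In a finite group every divisor of an element order is an element order. -/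
theorem sp_exists_order_of_dvd {L : Type u} [Group L] [Finite L] (g : L) {d : ℕ}
    (hd : d ∣ orderOf g) : ∃ h : L, orderOf h = d :=
  ⟨g ^ (orderOf g / d), orderOf_pow_orderOf_div (orderOf_pos g).ne' hd⟩

/-- The basic arithmetic fact. -/
theorem sp_eq_mul {N0 r X : ℕ} (hco : Nat.Coprime N0 r) (h1 : X ∣ N0 * r) (h2 : N0 ∣ X)
    (h3 : r ∣ X) : X = N0 * r :=
  Nat.dvd_antisymm h1 (hco.mul_dvd_of_dvd_of_dvd h2 h3)

/-- Elements of `Multiplicative (Fin m → ZMod r)` have order dividing `r`. -/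
theorem sp_orderOf_dvd (r m : ℕ) (v : Multiplicative (Fin m → ZMod r)) : orderOf v ∣ r := by
  apply orderOf_dvd_of_pow_eq_one
  apply Multiplicative.toAdd.injective
  funext i
  simp [nsmul_eq_mul]

/-- Splitting `N0 ∣ p ^ T * σ` into its `p`-part and its `p'`-part. -/
theorem sp_split {p T σ N0 : ℕ} (hp : p.Prime) (hN0 : N0 ≠ 0) (h : N0 ∣ p ^ T * σ) :
    ∃ τ M : ℕ, p ^ τ * M = N0 ∧ ¬ p ∣ M ∧ M ∣ σ ∧ Nat.Coprime (p ^ τ) M := by
  refine ⟨N0.factorization p, N0 / p ^ N0.factorization p,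
    Nat.ordProj_mul_ordCompl_eq_self N0 p, Nat.not_dvd_ordCompl hp hN0, ?_, ?_⟩
  · have hM : N0 / p ^ N0.factorization p ∣ N0 := Nat.ordCompl_dvd N0 p
    have hco : Nat.Coprime (N0 / p ^ N0.factorization p) (p ^ T) :=
      Nat.Coprime.pow_right T
        ((Nat.Prime.coprime_iff_not_dvd hp).mpr (Nat.not_dvd_ordCompl hp hN0)).symm
    exact hco.dvd_of_dvd_mul_left (hM.trans h)
  · exact Nat.Coprime.pow_left _
      ((Nat.Prime.coprime_iff_not_dvd hp).mpr (Nat.not_dvd_ordCompl hp hN0))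

theorem pkgAbs3 : PkgAbs3.{u} := by
  intro L _ _ p r σ m hp hr hrp ⟨z0, hz0⟩ ⟨g, hg⟩ hdich
  apply Set.eq_of_subset_of_subset
  · rintro N ⟨⟨x, y, z, v⟩, rfl⟩
    have hN : orderOf ((x, y, z, v) : L × L × L × Multiplicative (Fin m → ZMod r))
        = Nat.lcm (orderOf x) (Nat.lcm (orderOf y) (Nat.lcm (orderOf z) (orderOf v))) := by
      rw [Prod.orderOf, Prod.orderOf, Prod.orderOf]
    have h3 : ∀ a b c : L, orderOf ((a, b, c) : L × L × L)
        = Nat.lcm (orderOf a) (Nat.lcm (orderOf b) (orderOf c)) := by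
      intro a b c
      rw [Prod.orderOf, Prod.orderOf]
    rw [hN]
    set a := orderOf x with ha
    set b := orderOf y with hb
    set c := orderOf z with hc
    have ha0 : a ≠ 0 := (orderOf_pos x).ne'
    have hb0 : b ≠ 0 := (orderOf_pos y).ne'
    have hc0 : c ≠ 0 := (orderOf_pos z).ne'
    have hN0ne : Nat.lcm a (Nat.lcm b c) ≠ 0 := Nat.lcm_ne_zero ha0 (Nat.lcm_ne_zero hb0 hc0)
    rcases (Nat.dvd_prime hr).mp (sp_orderOf_dvd r m v) with hv | hv
    · refine ⟨(x, y, z), ?_⟩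
      rw [h3, hv, Nat.lcm_one_right]
    · rw [hv]
      have hassoc : Nat.lcm a (Nat.lcm b (Nat.lcm c r)) = Nat.lcm (Nat.lcm a (Nat.lcm b c)) r := by
        rw [Nat.lcm_assoc, Nat.lcm_assoc]
      rw [hassoc]
      by_cases hrN : r ∣ Nat.lcm a (Nat.lcm b c)
      · refine ⟨(x, y, z), ?_⟩
        rw [h3, Nat.lcm_eq_left hrN]
      · have hco : Nat.Coprime (Nat.lcm a (Nat.lcm b c)) r :=
          ((Nat.Prime.coprime_iff_not_dvd hr).mpr hrN).symm
        rw [hco.lcm_eq_mul]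
        have haN : a ∣ Nat.lcm a (Nat.lcm b c) := Nat.dvd_lcm_left _ _
        have hbcN : Nat.lcm b c ∣ Nat.lcm a (Nat.lcm b c) := Nat.dvd_lcm_right _ _
        have hbN : b ∣ Nat.lcm a (Nat.lcm b c) := (Nat.dvd_lcm_left _ _).trans hbcN
        have hcN : c ∣ Nat.lcm a (Nat.lcm b c) := (Nat.dvd_lcm_right _ _).trans hbcN
        have hra : ¬ r ∣ a := fun h => hrN (h.trans haN)
        have hrb : ¬ r ∣ b := fun h => hrN (h.trans hbN)
        have hrc : ¬ r ∣ c := fun h => hrN (h.trans hcN)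
        rcases hdich x hra with ⟨x', hx'⟩ | ⟨T1, hT1⟩
        · refine ⟨(x', y, z), ?_⟩
          rw [h3, hx']
          refine sp_eq_mul hco ?_ ?_ ?_
          · exact Nat.lcm_dvd (Nat.mul_dvd_mul_right haN r) (hbcN.trans (Nat.dvd_mul_right _ _))
          · exact Nat.lcm_dvd ((Nat.dvd_mul_right _ _).trans (Nat.dvd_lcm_left _ _))
              (Nat.dvd_lcm_right _ _)
          · exact (Nat.dvd_mul_left _ _).trans (Nat.dvd_lcm_left _ _)
        rcases hdich y hrb with ⟨y', hy'⟩ | ⟨T2, hT2⟩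
        · refine ⟨(x, y', z), ?_⟩
          rw [h3, hy']
          refine sp_eq_mul hco ?_ ?_ ?_
          · exact Nat.lcm_dvd (haN.trans (Nat.dvd_mul_right _ _))
              (Nat.lcm_dvd (Nat.mul_dvd_mul_right hbN r) (hcN.trans (Nat.dvd_mul_right _ _)))
          · exact Nat.lcm_dvd (Nat.dvd_lcm_left _ _)
              ((Nat.lcm_dvd ((Nat.dvd_mul_right _ _).trans (Nat.dvd_lcm_left _ _))
                (Nat.dvd_lcm_right _ _)).trans (Nat.dvd_lcm_right _ _))
          · exact ((Nat.dvd_mul_left _ _).trans (Nat.dvd_lcm_left _ _)).trans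
              (Nat.dvd_lcm_right _ _)
        rcases hdich z hrc with ⟨z', hz'⟩ | ⟨T3, hT3⟩
        · refine ⟨(x, y, z'), ?_⟩
          rw [h3, hz']
          refine sp_eq_mul hco ?_ ?_ ?_
          · exact Nat.lcm_dvd (haN.trans (Nat.dvd_mul_right _ _))
              (Nat.lcm_dvd (hbN.trans (Nat.dvd_mul_right _ _)) (Nat.mul_dvd_mul_right hcN r))
          · exact Nat.lcm_dvd (Nat.dvd_lcm_left _ _)
              ((Nat.lcm_dvd (Nat.dvd_lcm_left _ _)
                ((Nat.dvd_mul_right _ _).trans (Nat.dvd_lcm_right _ _))).trans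
                (Nat.dvd_lcm_right _ _))
          · exact ((Nat.dvd_mul_left _ _).trans (Nat.dvd_lcm_right _ _)).trans
              (Nat.dvd_lcm_right _ _)
        -- all three are of type (I)
        have hpow : ∀ T' : ℕ, T' ≤ T1 + T2 + T3 → p ^ T' * σ ∣ p ^ (T1 + T2 + T3) * σ :=
          fun T' h => Nat.mul_dvd_mul_right (pow_dvd_pow p h) σ
        have hN0 : Nat.lcm a (Nat.lcm b c) ∣ p ^ (T1 + T2 + T3) * σ :=
          Nat.lcm_dvd (hT1.trans (hpow T1 (by omega)))
            (Nat.lcm_dvd (hT2.trans (hpow T2 (by omega))) (hT3.trans (hpow T3 (by omega))))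
        obtain ⟨τ, M, hτM, hpM, hMσ, hcoτM⟩ := sp_split hp hN0ne hN0
        obtain ⟨g1, hg1⟩ := sp_exists_order_of_dvd g (hg ▸ hMσ)
        have hτN : p ^ τ ∣ Nat.lcm a (Nat.lcm b c) := ⟨M, hτM.symm⟩
        have hMN : M ∣ Nat.lcm a (Nat.lcm b c) := ⟨p ^ τ, by rw [← hτM, Nat.mul_comm]⟩
        obtain ⟨g2, hg2⟩ : ∃ g2 : L, orderOf g2 = p ^ τ := by
          rcases sp_pp_dvd_lcm hp hτN with h | h
          · exact sp_exists_order_of_dvd x h
          rcases sp_pp_dvd_lcm hp h with h | h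
          · exact sp_exists_order_of_dvd y h
          · exact sp_exists_order_of_dvd z h
        refine ⟨(g2, g1, z0), ?_⟩
        rw [h3, hg2, hg1, hz0]
        refine sp_eq_mul hco ?_ ?_ ?_
        · exact Nat.lcm_dvd (hτN.trans (Nat.dvd_mul_right _ _))
            (Nat.lcm_dvd (hMN.trans (Nat.dvd_mul_right _ _)) (Nat.dvd_mul_left _ _))
        · rw [← hτM]
          exact hcoτM.mul_dvd_of_dvd_of_dvd (Nat.dvd_lcm_left _ _)
            ((Nat.dvd_lcm_left _ _).trans (Nat.dvd_lcm_right _ _))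
        · exact (Nat.dvd_lcm_right _ _).trans (Nat.dvd_lcm_right _ _)
  · rintro N ⟨⟨x, y, z⟩, rfl⟩
    refine ⟨(x, y, z, 1), ?_⟩
    rw [Prod.orderOf, Prod.orderOf, Prod.orderOf, Prod.orderOf, Prod.orderOf]
    simp

end Cfsg.Agent.Lib.Helper85.SpecProd
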