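import Mathlib
import Cfsg.Agent.Lib.Helper58.SpecProd.Defs
import Cfsg.Agent.Lib.Helper85.SpecProd.Abs3

/-!
# SpecProd package [A2]: two factors absorb a prime `r` (abstract, any finite group).
-/

set_option autoImplicit false

namespace Cfsg.Agent.Lib.Helper85.SpecProd

open Cfsg.Agent.Lib.Helper58.SpecProd

universe u

theorem pkgAbs2 : PkgAbs2.{u} := by
  intro L _ _ p r σ m hp hr hrp ⟨g, hg⟩ hdich hU
  apply Set.eq_of_subset_of_subset
  · rintro N ⟨⟨x, y, v⟩, rfl⟩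
    have hN : orderOf ((x, y, v) : L × L × Multiplicative (Fin m → ZMod r))
        = Nat.lcm (orderOf x) (Nat.lcm (orderOf y) (orderOf v)) := by
      rw [Prod.orderOf, Prod.orderOf]
    have h2 : ∀ a b : L, orderOf ((a, b) : L × L) = Nat.lcm (orderOf a) (orderOf b) := by
      intro a b
      rw [Prod.orderOf]
    rw [hN]
    set a := orderOf x with ha
    set b := orderOf y with hb
    have ha0 : a ≠ 0 := (orderOf_pos x).ne'
    have hb0 : b ≠ 0 := (orderOf_pos y).ne'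
    have hN0ne : Nat.lcm a b ≠ 0 := Nat.lcm_ne_zero ha0 hb0
    rcases (Nat.dvd_prime hr).mp (sp_orderOf_dvd r m v) with hv | hv
    · refine ⟨(x, y), ?_⟩
      rw [h2, hv, Nat.lcm_one_right]
    · rw [hv]
      have hassoc : Nat.lcm a (Nat.lcm b r) = Nat.lcm (Nat.lcm a b) r := by
        rw [Nat.lcm_assoc]
      rw [hassoc]
      by_cases hrN : r ∣ Nat.lcm a b
      · refine ⟨(x, y), ?_⟩
        rw [h2, Nat.lcm_eq_left hrN]
      · have hco : Nat.Coprime (Nat.lcm a b) r :=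
          ((Nat.Prime.coprime_iff_not_dvd hr).mpr hrN).symm
        rw [hco.lcm_eq_mul]
        have haN : a ∣ Nat.lcm a b := Nat.dvd_lcm_left _ _
        have hbN : b ∣ Nat.lcm a b := Nat.dvd_lcm_right _ _
        have hra : ¬ r ∣ a := fun h => hrN (h.trans haN)
        have hrb : ¬ r ∣ b := fun h => hrN (h.trans hbN)
        rcases hdich x hra with ⟨x', hx'⟩ | ⟨T1, hT1⟩
        · refine ⟨(x', y), ?_⟩
          rw [h2, hx']
          refine sp_eq_mul hco ?_ ?_ ?_
          · exact Nat.lcm_dvd (Nat.mul_dvd_mul_right haN r) (hbN.trans (Nat.dvd_mul_right _ _))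
          · exact Nat.lcm_dvd ((Nat.dvd_mul_right _ _).trans (Nat.dvd_lcm_left _ _))
              (Nat.dvd_lcm_right _ _)
          · exact (Nat.dvd_mul_left _ _).trans (Nat.dvd_lcm_left _ _)
        rcases hdich y hrb with ⟨y', hy'⟩ | ⟨T2, hT2⟩
        · refine ⟨(x, y'), ?_⟩
          rw [h2, hy']
          refine sp_eq_mul hco ?_ ?_ ?_
          · exact Nat.lcm_dvd (haN.trans (Nat.dvd_mul_right _ _)) (Nat.mul_dvd_mul_right hbN r)
          · exact Nat.lcm_dvd (Nat.dvd_lcm_left _ _)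
              ((Nat.dvd_mul_right _ _).trans (Nat.dvd_lcm_right _ _))
          · exact (Nat.dvd_mul_left _ _).trans (Nat.dvd_lcm_right _ _)
        -- both are of type (I)
        have hpow : ∀ T' : ℕ, T' ≤ T1 + T2 → p ^ T' * σ ∣ p ^ (T1 + T2) * σ :=
          fun T' h => Nat.mul_dvd_mul_right (pow_dvd_pow p h) σ
        have hN0 : Nat.lcm a b ∣ p ^ (T1 + T2) * σ :=
          Nat.lcm_dvd (hT1.trans (hpow T1 (by omega))) (hT2.trans (hpow T2 (by omega)))
        obtain ⟨τ, M, hτM, hpM, hMσ, hcoτM⟩ := sp_split hp hN0ne hN0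
        obtain ⟨g1, hg1⟩ := sp_exists_order_of_dvd g (hg ▸ hMσ)
        have hτN : p ^ τ ∣ Nat.lcm a b := ⟨M, hτM.symm⟩
        have hMN : M ∣ Nat.lcm a b := ⟨p ^ τ, by rw [← hτM, Nat.mul_comm]⟩
        obtain ⟨g2, hg2⟩ : ∃ g2 : L, orderOf g2 = p ^ τ := by
          rcases sp_pp_dvd_lcm hp hτN with h | h
          · exact sp_exists_order_of_dvd x h
          · exact sp_exists_order_of_dvd y h
        obtain ⟨w, hw⟩ := hU g2 ⟨τ, hg2⟩
        rw [hg2] at hw
        refine ⟨(w, g1), ?_⟩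
        rw [h2, hw, hg1]
        refine sp_eq_mul hco ?_ ?_ ?_
        · exact Nat.lcm_dvd (Nat.mul_dvd_mul_right hτN r) (hMN.trans (Nat.dvd_mul_right _ _))
        · rw [← hτM]
          exact hcoτM.mul_dvd_of_dvd_of_dvd
            ((Nat.dvd_mul_right _ _).trans (Nat.dvd_lcm_left _ _)) (Nat.dvd_lcm_right _ _)
        · exact (Nat.dvd_mul_left _ _).trans (Nat.dvd_lcm_left _ _)
  · rintro N ⟨⟨x, y⟩, rfl⟩
    refine ⟨(x, y, 1), ?_⟩
    rw [Prod.orderOf, Prod.orderOf, Prod.orderOf]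
    simp

end Cfsg.Agent.Lib.Helper85.SpecProd
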